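import Cfsg.Agent.Characters.ClassMul
import Cfsg.Agent.Characters.CentralCharacter
import Cfsg.Agent.Characters.SchurBound
import Cfsg.Agent.CharactersDeep.RChar
import Cfsg.Agent.S0145

/-!
# A character of degree divisible by `8` (helper904)

`G` a finite group with elementary abelian Sylow `2`-subgroups of order `8`, one class of involutions, and a real
element `x ≠ 1` with centraliser of odd order. Some irreducible character has degree divisible by `8`.
-/

set_option autoImplicit false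

open scoped ComplexConjugate

namespace Cfsg.Agent.H904.TwoZero

open Cfsg Cfsg.Agent.Characters Cfsg.Agent.Characters.Core Subgroup

section char

variable {G : Type*} [Group G] [Finite G]

/-- the value on an involution -/
theorem exists_val {t : G} {P : Subgroup G} (hP : Nat.card P = 8) (hPt : ∀ y ∈ P, y ≠ 1 → IsConj t y)
    (χ : IrrCharacter G) : ∃ (d : ℕ) (c m : ℤ), (χ : G → ℂ) 1 = d ∧ 0 < d ∧ (χ : G → ℂ) t = c ∧ (d : ℤ) + 7 * c = 8 * m := by
  classical
  have := Fintype.ofFinite G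
  have := Fintype.ofFinite P
  obtain ⟨d, hd, hd1⟩ := isIrr_apply_one χ.2
  have hres : IsCharacter P (fun y : P => (χ : G → ℂ) y) := isCharacter_comp P.subtype (isIrr_isCharacter χ.2)
  obtain ⟨m, hm⟩ := classInner_isNat hres (isCharacter_one (G := P))
  rw [classInner_def, hP] at hm
  have h1 : ∑ y : P, (χ : G → ℂ) y * conj ((1 : P → ℂ) y) = (χ : G → ℂ) 1 + 7 * (χ : G → ℂ) t := by
    rw [← Finset.add_sum_erase Finset.univ _ (Finset.mem_univ (1 : P))]
    have h2 : ∀ y ∈ (Finset.univ : Finset P).erase 1, (χ : G → ℂ) y * conj ((1 : P → ℂ) y) = (χ : G → ℂ) t := by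
      intro y hy
      have h3 : (y : G) ≠ 1 := fun h => (Finset.mem_erase.1 hy).1 (Subtype.ext h)
      obtain ⟨g, hg⟩ := isConj_iff.1 (hPt y y.2 h3)
      rw [← hg, isIrr_isClassFunction χ.2]
      simp
    rw [Finset.sum_congr rfl h2, Finset.sum_const, Finset.card_erase_of_mem (Finset.mem_univ _), Finset.card_univ,
      ← Nat.card_eq_fintype_card, hP]
    simp
  rw [h1, hd1] at hm
  have h2 : (d : ℂ) + 7 * (χ : G → ℂ) t = 8 * m := by
    have h8 : (8 : ℂ) ≠ 0 := by norm_num
    push_cast at hm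
    field_simp at hm
    linear_combination hm
  have h3 : (χ : G → ℂ) t = (((8 * m - d) / 7 : ℚ) : ℂ) := by
    push_cast
    linear_combination h2 / 7
  obtain ⟨c, hc⟩ := SchurBound.exists_int_of_rat
    (Cfsg.Agent.CharactersDeep.RChar.isIntegral_character (isIrr_isCharacter χ.2) t) h3
  refine ⟨d, c, m, hd1, hd, hc, ?_⟩
  rw [hc] at h2
  exact_mod_cast h2

/-- the central character -/
theorem exists_omega {t : G} (χ : IrrCharacter G) {d : ℕ} {c : ℤ} (hd : (χ : G → ℂ) 1 = d) (hd0 : 0 < d)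
    (hc : (χ : G → ℂ) t = c) : ∃ w : ℤ, w * d = ((centralizer ({t} : Set G)).index : ℤ) * c := by
  obtain ⟨n, ρ, hρ, hχ⟩ := χ.2
  have h1 := CentralCharacter.isIntegral_index_mul_character_div ρ t
  have h2 : ρ.character 1 = (Module.finrank ℂ (Fin n → ℂ) : ℂ) := Representation.char_one ρ
  rw [← h2, hχ, hd, hc] at h1
  have h3 : (((centralizer ({t} : Set G)).index : ℂ) * (c : ℂ) / (d : ℂ)) =
      ((((centralizer ({t} : Set G)).index : ℚ) * (c : ℚ) / (d : ℚ) : ℚ) : ℂ) := by
    push_cast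
    rfl
  obtain ⟨w, hw⟩ := SchurBound.exists_int_of_rat h1 h3
  refine ⟨w, ?_⟩
  have hd' : (d : ℂ) ≠ 0 := by exact_mod_cast hd0.ne'
  rw [div_eq_iff hd'] at hw
  exact_mod_cast hw.symm

/-- **A character of degree divisible by `8`.** -/
theorem exists_div {t x : G} {P : Subgroup G} (hP : Nat.card P = 8) (hPt : ∀ y ∈ P, y ≠ 1 → IsConj t y)
    (hidx : (centralizer ({t} : Set G)).index % 8 = 7) {o : ℕ} (ho : Odd o) (hG : Nat.card G = 8 * o)
    (hx1 : x ≠ 1) (hxt : ¬ IsConj t x)
    (hN : Odd (Nat.card {p : G × G // IsConj t p.1 ∧ IsConj t p.2 ∧ p.1 * p.2 = x})) :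
    ∃ (χ : IrrCharacter G) (d : ℕ), (χ : G → ℂ) 1 = d ∧ 8 ∣ d := by
  classical
  by_contra hcon
  push Not at hcon
  have := Fintype.ofFinite G
  have : Finite (IrrCharacter G) := finite_irr
  have := Fintype.ofFinite (IrrCharacter G)
  set n : ℕ := (centralizer ({t} : Set G)).index with hn
  choose d c m hd hd0 hc hm using fun χ : IrrCharacter G => exists_val hP hPt χ
  choose w hw using fun χ : IrrCharacter G => exists_omega χ (hd χ) (hd0 χ) (hc χ)
  obtain ⟨k, hk⟩ : ∃ k : ℤ, (n : ℤ) = 8 * k + 7 := ⟨n / 8, by omega⟩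
  have hz : ∀ χ : IrrCharacter G, ∃ z : ℤ, (1 + w χ) * (d χ + n * c χ) = 16 * z := by
    intro χ
    have h1 : (1 + w χ) * d χ = 8 * (m χ + k * c χ) := by
      rw [add_mul, one_mul, hw, ← hn, hk]
      linear_combination hm χ
    have h2 : (d χ : ℤ) + n * c χ = 8 * (m χ + k * c χ) := by
      rw [hk]
      linear_combination hm χ
    have h3 : ¬ (8 : ℤ) ∣ d χ := fun h => hcon χ (d χ) (hd χ) (by exact_mod_cast h)
    have h4 : (2 : ℤ) ∣ 1 + w χ := by
      by_contra h5
      apply h3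
      have h6 : IsCoprime (8 : ℤ) (1 + w χ) := by
        have h7 : IsCoprime (2 : ℤ) (1 + w χ) := (Int.prime_two.coprime_iff_not_dvd).2 h5
        have h8 : (8 : ℤ) = 2 ^ 3 := by norm_num
        rw [h8]
        exact h7.pow_left
      exact h6.dvd_of_dvd_mul_left (Dvd.intro _ h1.symm)
    obtain ⟨e, he⟩ := h4
    refine ⟨e * (m χ + k * c χ), ?_⟩
    rw [he, h2]
    ring
  choose z hz using hz
  set α : ℂ := ∑ χ : IrrCharacter G, (z χ : ℂ) * conj ((χ : G → ℂ) x) with hα
  have hint : IsIntegral ℤ α := by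
    refine IsIntegral.sum _ fun χ _ => ?_
    exact (Cfsg.Agent.CharactersDeep.RChar.isIntegral_intCast _).mul (Cfsg.Agent.CharactersDeep.RChar.isIntegral_conj
      (Cfsg.Agent.CharactersDeep.RChar.isIntegral_character (isIrr_isCharacter χ.2) x))
  -- the orthogonality relations
  have c1 : ∑ χ : IrrCharacter G, (d χ : ℂ) * conj ((χ : G → ℂ) x) = 0 := by
    have h := (S0145.result (1 : G) x).2 (fun h => hx1 (isConj_one_right.1 h))
    rw [finsum_eq_sum_of_fintype] at h
    rw [← h]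
    exact Finset.sum_congr rfl fun χ _ => by rw [hd]
  have c2 : ∑ χ : IrrCharacter G, (c χ : ℂ) * conj ((χ : G → ℂ) x) = 0 := by
    have h := (S0145.result t x).2 hxt
    rw [finsum_eq_sum_of_fintype] at h
    rw [← h]
    exact Finset.sum_congr rfl fun χ _ => by rw [hc]
  have hGC : (Nat.card G : ℂ) ≠ 0 := card_ne_zero_complex
  have c3 := ClassMul.card_class_mul t t x
  rw [← hn] at c3
  set M : ℕ := Nat.card {p : G × G // IsConj t p.1 ∧ IsConj t p.2 ∧ p.1 * p.2 = x} with hM
  have c4 : (Nat.card G : ℂ) * M = ∑ χ : IrrCharacter G, ((w χ : ℂ) * (n * c χ)) * conj ((χ : G → ℂ) x) := by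
    rw [c3]
    have h1 : (Nat.card G : ℂ) * ((n : ℂ) * n / (Nat.card G : ℂ) *
        ∑ χ : IrrCharacter G, (χ : G → ℂ) t * (χ : G → ℂ) t * conj ((χ : G → ℂ) x) / (χ : G → ℂ) 1) =
        (n : ℂ) * n * ∑ χ : IrrCharacter G, (χ : G → ℂ) t * (χ : G → ℂ) t * conj ((χ : G → ℂ) x) / (χ : G → ℂ) 1 := by
      field_simp
    rw [h1, Finset.mul_sum]
    refine Finset.sum_congr rfl fun χ _ => ?_
    have h2 : (d χ : ℂ) ≠ 0 := by exact_mod_cast (hd0 χ).ne'
    have h3 : (w χ : ℂ) * d χ = n * c χ := by exact_mod_cast hw χ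
    rw [hc, hd]
    field_simp
    linear_combination (-(n : ℂ) * c χ * conj ((χ : G → ℂ) x)) * h3
  have c5 : (Nat.card G : ℂ) * M = 16 * α := by
    have h1 : ∀ χ : IrrCharacter G, (16 : ℂ) * ((z χ : ℂ) * conj ((χ : G → ℂ) x)) =
        (d χ : ℂ) * conj ((χ : G → ℂ) x) + (2 * n) * ((c χ : ℂ) * conj ((χ : G → ℂ) x)) +
        ((w χ : ℂ) * (n * c χ)) * conj ((χ : G → ℂ) x) := by
      intro χ
      have h2 : (1 + (w χ : ℂ)) * (d χ + n * c χ) = 16 * z χ := by exact_mod_cast hz χ
      have h3 : (w χ : ℂ) * d χ = n * c χ := by exact_mod_cast hw χ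
      linear_combination (-conj ((χ : G → ℂ) x)) * h2 + (conj ((χ : G → ℂ) x)) * h3
    rw [hα, Finset.mul_sum, Finset.sum_congr rfl fun χ _ => h1 χ, Finset.sum_add_distrib, Finset.sum_add_distrib,
      ← Finset.mul_sum, c1, c2, ← c4]
    ring
  have c6 : α = (((o * M : ℚ) / 2 : ℚ) : ℂ) := by
    rw [hG] at c5
    push_cast at c5 ⊢
    linear_combination (-1 / 16 : ℂ) * c5
  obtain ⟨a, ha⟩ := SchurBound.exists_int_of_rat hint c6
  have h7 : ((o * M : ℕ) : ℤ) = 2 * a := by
    rw [ha] at c6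
    have h8 : (a : ℚ) = (o * M : ℚ) / 2 := by exact_mod_cast c6
    have h9 : ((o * M : ℕ) : ℚ) = 2 * a := by
      rw [h8]
      push_cast
      ring
    exact_mod_cast h9
  have h8 : Odd (o * M) := ho.mul hN
  obtain ⟨b, hb⟩ := h8
  rw [hb] at h7
  omega

end char

section count

variable {G : Type*} [Group G] [Finite G]

/-- the extended centraliser -/
def ext (x : G) : Subgroup G where
  carrier := {g | g * x * g⁻¹ = x ∨ g * x * g⁻¹ = x⁻¹}
  mul_mem' := by
    have h : ∀ a b : G, (a * b) * x * (a * b)⁻¹ = a * (b * x * b⁻¹) * a⁻¹ := fun a b => by group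
    have h' : ∀ a : G, a * x⁻¹ * a⁻¹ = (a * x * a⁻¹)⁻¹ := fun a => by group
    rintro a b (ha | ha) (hb | hb)
    · exact Or.inl (by rw [h, hb, ha])
    · exact Or.inr (by rw [h, hb, h', ha])
    · exact Or.inr (by rw [h, hb, ha])
    · exact Or.inl (by rw [h, hb, h', ha, inv_inv])
  one_mem' := Or.inl (by group)
  inv_mem' := by
    rintro a (ha | ha)
    · left
      have h1 : a⁻¹ * (a * x * a⁻¹) * a⁻¹⁻¹ = x := by group
      rwa [ha] at h1
    · right
      have h1 : a⁻¹ * (a * x * a⁻¹)⁻¹ * a⁻¹⁻¹ = x⁻¹ := by group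
      rwa [ha, inv_inv] at h1

/-- a group of even order contains an odd number of involutions -/
theorem odd_involutions (M : Type*) [Group M] [Finite M] (h : Even (Nat.card M)) :
    Odd (Nat.card {s : M // s ≠ 1 ∧ s * s = 1}) := by
  classical
  have := Fintype.ofFinite M
  have h1 : ((Finset.univ.filter fun s : M => s * s ≠ 1).card : ZMod 2) = 0 := by
    rw [Finset.card_eq_sum_ones, Nat.cast_sum]
    refine Finset.sum_involution (fun s _ => s⁻¹) ?_ ?_ ?_ ?_
    · intro s _
      decide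
    · intro s hs _ h2
      rw [Finset.mem_filter] at hs
      apply hs.2
      nth_rewrite 1 [← h2]
      exact inv_mul_cancel s
    · intro s hs
      rw [Finset.mem_filter] at hs ⊢
      refine ⟨Finset.mem_univ _, fun h2 => hs.2 ?_⟩
      rw [← mul_inv_rev, inv_eq_one] at h2
      exact h2
    · intro s _
      exact inv_inv s
  rw [ZMod.natCast_eq_zero_iff_even] at h1
  have h2 := Finset.card_filter_add_card_filter_not (s := (Finset.univ : Finset M)) (fun s : M => s * s = 1)
  rw [Finset.card_univ, ← Nat.card_eq_fintype_card] at h2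
  have h3 : Even (Finset.univ.filter fun s : M => s * s = 1).card := by
    rcases Nat.even_or_odd (Finset.univ.filter fun s : M => s * s = 1).card with h3 | h3
    · exact h3
    · exfalso
      have h4 : Odd (Nat.card M) := by
        rw [← h2]
        exact h3.add_even h1
      exact (Nat.not_even_iff_odd.2 h4) h
  have h4 : (Finset.univ.filter fun s : M => s ≠ 1 ∧ s * s = 1).card + 1 =
      (Finset.univ.filter fun s : M => s * s = 1).card := by
    have h5 : (Finset.univ.filter fun s : M => s * s = 1) =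
        insert 1 (Finset.univ.filter fun s : M => s ≠ 1 ∧ s * s = 1) := by
      ext s
      simp only [Finset.mem_filter, Finset.mem_univ, true_and, Finset.mem_insert]
      constructor
      · intro hs
        by_cases h6 : s = 1
        · exact Or.inl h6
        · exact Or.inr ⟨h6, hs⟩
      · rintro (rfl | h6)
        · exact one_mul 1
        · exact h6.2
    rw [h5, Finset.card_insert_of_notMem]
    simp
  rw [Nat.card_eq_fintype_card, Fintype.card_subtype]
  rw [← h4] at h3
  rcases Nat.even_or_odd (Finset.univ.filter fun s : M => s ≠ 1 ∧ s * s = 1).card with h5 | h5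
  · exact absurd h3 (Nat.not_even_iff_odd.2 h5.add_one)
  · exact h5

/-- the number of pairs of involutions with product `x` is odd -/
theorem odd_pairs {t x s₀ : G} (hconj : ∀ s : G, IsConj t s ↔ s ≠ 1 ∧ s * s = 1) (hx2 : x * x ≠ 1)
    (hC : Odd (Nat.card (centralizer ({x} : Set G)))) (hs₀ : s₀ ≠ 1) (hs₀2 : s₀ * s₀ = 1)
    (hs₀x : s₀ * x * s₀⁻¹ = x⁻¹) :
    Odd (Nat.card {p : G × G // IsConj t p.1 ∧ IsConj t p.2 ∧ p.1 * p.2 = x}) := by
  have hM : Even (Nat.card (ext x)) := by
    have h1 : orderOf (⟨s₀, Or.inr hs₀x⟩ : ext x) ∣ Nat.card (ext x) := orderOf_dvd_natCard _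
    have h2 : orderOf (⟨s₀, Or.inr hs₀x⟩ : ext x) = 2 := by
      refine orderOf_eq_prime ?_ ?_
      · rw [pow_two]
        exact Subtype.ext hs₀2
      · intro h
        exact hs₀ (congrArg Subtype.val h)
    rw [h2] at h1
    exact even_iff_two_dvd.2 h1
  have h1 := odd_involutions (ext x) hM
  have hinv : ∀ s : G, s ≠ 1 → s * s = 1 → s ∈ ext x → s * x * s⁻¹ = x⁻¹ := by
    rintro s hs hs2 (h | h)
    · exfalso
      have h2 : s ∈ centralizer ({x} : Set G) := by
        rw [mem_centralizer_singleton_iff, ← mul_inv_eq_iff_eq_mul.1 h]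
      have h3 : orderOf (⟨s, h2⟩ : centralizer ({x} : Set G)) = 2 := by
        refine orderOf_eq_prime ?_ ?_
        · rw [pow_two]
          exact Subtype.ext hs2
        · intro h
          exact hs (congrArg Subtype.val h)
      have h4 : orderOf (⟨s, h2⟩ : centralizer ({x} : Set G)) ∣ Nat.card (centralizer ({x} : Set G)) :=
        orderOf_dvd_natCard _
      rw [h3] at h4
      exact (Nat.not_even_iff_odd.2 hC) (even_iff_two_dvd.2 h4)
    · exact h
  have hA : ∀ p : {p : G × G // IsConj t p.1 ∧ IsConj t p.2 ∧ p.1 * p.2 = x}, p.1.1 * x * p.1.1⁻¹ = x⁻¹ := by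
    rintro ⟨⟨a, b⟩, ha, hb, hab⟩
    have ha2 := ((hconj a).1 ha).2
    have hb2 := ((hconj b).1 hb).2
    change a * b = x at hab
    show a * x * a⁻¹ = x⁻¹
    have h2 : a⁻¹ = a := inv_eq_of_mul_eq_one_left ha2
    have h3 : b⁻¹ = b := inv_eq_of_mul_eq_one_left hb2
    rw [← hab, mul_inv_rev, h2, h3, ← mul_assoc, ha2, one_mul]
  have hB : ∀ s : {s : ext x // s ≠ 1 ∧ s * s = 1}, IsConj t (s.1 : G) ∧ IsConj t ((s.1 : G)⁻¹ * x) := by
    intro s
    have hs2 : (s.1 : G) * s.1 = 1 := congrArg Subtype.val s.2.2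
    have hs1 : (s.1 : G) ≠ 1 := fun h => s.2.1 (Subtype.ext h)
    have h2 := hinv _ hs1 hs2 s.1.2
    have h3 : (s.1 : G)⁻¹ = s.1 := inv_eq_of_mul_eq_one_left hs2
    refine ⟨(hconj _).2 ⟨hs1, hs2⟩, (hconj _).2 ⟨fun h => ?_, ?_⟩⟩
    · have h4 : x = (s.1 : G) := (inv_mul_eq_one.1 h).symm
      apply hx2
      rw [h4, hs2]
    · rw [h3] at h2 ⊢
      rw [← mul_assoc, h2, inv_mul_cancel]
  have e : {p : G × G // IsConj t p.1 ∧ IsConj t p.2 ∧ p.1 * p.2 = x} ≃ {s : ext x // s ≠ 1 ∧ s * s = 1} :=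
    { toFun := fun p => ⟨⟨p.1.1, Or.inr (hA p)⟩, fun h => ((hconj _).1 p.2.1).1 (congrArg Subtype.val h),
        Subtype.ext ((hconj _).1 p.2.1).2⟩
      invFun := fun s => ⟨(s.1, (s.1 : G)⁻¹ * x), (hB s).1, (hB s).2, mul_inv_cancel_left _ _⟩
      left_inv := by
        rintro ⟨⟨a, b⟩, ha, hb, hab⟩
        apply Subtype.ext
        change (a, a⁻¹ * x) = (a, b)
        change a * b = x at hab
        rw [← hab, inv_mul_cancel_left]
      right_inv := fun s => rfl }
  rwa [Nat.card_congr e]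

end count

end Cfsg.Agent.H904.TwoZero
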